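import Mathlib
import Cfsg.Agent.H613.KS.Props

/-!
# S4577, PA4: the two hard cases as propositions

* `PA4Fix` : some `u ≠ 1` in `D` is fixed by `T`;
* `PA4Nine` : `|T : C_G(D)| = 9`.
-/

set_option autoImplicit false

open Cfsg Cfsg.Agent.H613.KS

namespace Cfsg.Agent.H850.KS

universe u

/-- an element `u ≠ 1` of `D` is fixed by the inertial group: heights zero -/
def PA4Fix : Prop :=
  ∀ {G : Type u} [Group G] [Finite G] {M : Ideal AlgInt} (_ : IsPModular 2 M) {B : Set (IrrCharacter G)}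
    (_ : IsPBlock M B) {D : Subgroup G} (_ : IsDefectGroup 2 M B D) (_ : E16 D)
    (c : Set (IrrCharacter ↥(Subgroup.centralizer (D : Set G))))
    (_ : IsInducedBlock M (Subgroup.centralizer (D : Set G)) c B) (T : Subgroup G)
    (_ : ∀ g : G, g ∈ T ↔ (g ∈ Subgroup.normalizer (D : Set G) ∧
      StabilizesBlock (Subgroup.centralizer (D : Set G)) c g))
    {u : G} (_ : u ∈ D) (_ : u ≠ 1) (_ : ∀ t ∈ T, t * u * t⁻¹ = u),
    ∀ χ ∈ B, blockHeight 2 B (χ : G → ℂ) = 0

/-- inertial index 9: heights zero -/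
def PA4Nine : Prop :=
  ∀ {G : Type u} [Group G] [Finite G] {M : Ideal AlgInt} (_ : IsPModular 2 M) {B : Set (IrrCharacter G)}
    (_ : IsPBlock M B) {D : Subgroup G} (_ : IsDefectGroup 2 M B D) (_ : E16 D)
    (c : Set (IrrCharacter ↥(Subgroup.centralizer (D : Set G))))
    (_ : IsInducedBlock M (Subgroup.centralizer (D : Set G)) c B) (T : Subgroup G)
    (_ : ∀ g : G, g ∈ T ↔ (g ∈ Subgroup.normalizer (D : Set G) ∧
      StabilizesBlock (Subgroup.centralizer (D : Set G)) c g))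
    (_ : (Subgroup.centralizer (D : Set G)).relIndex T = 9), ∀ χ ∈ B, blockHeight 2 B (χ : G → ℂ) = 0

end Cfsg.Agent.H850.KS
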