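import Cfsg.Agent.H850.DXVI.Major
import Cfsg.Agent.H641.Inertial

/-!
# The number of classes of major subsections and heights, `p = 2`: forms for use

* `card_mul_le'` : `|ι| * 2 ^ (h + 1) ≤ 2 ^ d` for pairwise non-`T`-conjugate central elements `z i` of `D`;
* `card_mul_le_ab` : the same for abelian `D` and the stabilizer in the form `StabilizesBlock`.
-/

set_option autoImplicit false
set_option linter.unusedSectionVars false

open Cfsg

namespace Cfsg.Agent.H850.KS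

open Cfsg.Agent.Blocks.Local Cfsg.Agent.Characters
open Cfsg.Agent.H649 (isConjCharOf_iff conjAut mem_normalizer_centralizer irrMap)

variable {G : Type*} [Group G] [Finite G] {M : Ideal AlgInt} {B : Set (IrrCharacter G)} {D : Subgroup G}

theorem card_mul_le' (hM : IsPModular 2 M) (hD : IsDefectGroup 2 M B D) {H : Subgroup G}
    (hH : H = D ⊔ Subgroup.centralizer (D : Set G)) {b : Set (IrrCharacter ↥H)} (hb : IsInducedBlock M H b B)
    {T : Subgroup G}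
    (hT : ∀ g : G, g ∈ T ↔ (g ∈ Subgroup.normalizer (D : Set G) ∧ ∀ θ ∈ b, ∀ θ' : IrrCharacter ↥H,
        (∀ h h' : ↥H, (h' : G) = g * h * g⁻¹ → (θ' : ↥H → ℂ) h' = (θ : ↥H → ℂ) h) → θ' ∈ b))
    {ι : Type*} [Fintype ι] (z : ι → G) (hzD : ∀ i, z i ∈ D) (hzc : ∀ i, ∀ w ∈ D, z i * w = w * z i)
    (hz4 : ∀ i, z i ^ 4 = 1) (hz : ∀ i j, ∀ t ∈ T, t * z i * t⁻¹ = z j → i = j)
    {χ : IrrCharacter G} (hχ : χ ∈ B) (hh : blockHeight 2 B (χ : G → ℂ) ≠ 0) :
    Fintype.card ι * 2 ^ (blockHeight 2 B (χ : G → ℂ) + 1) ≤ 2 ^ blockDefect 2 B := by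
  subst hH
  have : Fact (Nat.Prime 2) := ⟨Nat.prime_two⟩
  have hzc' : ∀ z : Subgroup.center D, ∀ w ∈ D, ((z : D) : G) * w = w * ((z : D) : G) := by
    intro z w hw
    have h1 := Subgroup.mem_center_iff.1 z.2 ⟨w, hw⟩
    exact (congrArg Subtype.val h1).symm
  choose f hf1 hf2 hf3 hf4 using fun z : Subgroup.center D =>
    Cfsg.Agent.H658.exists_major hM hD (z : D).2 (hzc' z) hb
  exact DXVI.card_mul_le hM hD f hf1 hf2 hf3 hf4 hT
    (fun i => ⟨⟨z i, hzD i⟩, Subgroup.mem_center_iff.2 fun w => Subtype.ext (hzc i w w.2).symm⟩)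
    hz4 hz hχ hh

/-- the bound for elements which are pairwise not conjugate under the normalizer -/
theorem card_mul_le_norm (hM : IsPModular 2 M) (hD : IsDefectGroup 2 M B D)
    {b : Set (IrrCharacter ↥(D ⊔ Subgroup.centralizer (D : Set G)))}
    (hb : IsInducedBlock M (D ⊔ Subgroup.centralizer (D : Set G)) b B)
    {ι : Type*} [Fintype ι] (z : ι → G) (hzD : ∀ i, z i ∈ D) (hzc : ∀ i, ∀ w ∈ D, z i * w = w * z i)
    (hz4 : ∀ i, z i ^ 4 = 1)
    (hz : ∀ i j, ∀ t ∈ Subgroup.normalizer (D : Set G), t * z i * t⁻¹ = z j → i = j)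
    {χ : IrrCharacter G} (hχ : χ ∈ B) (hh : blockHeight 2 B (χ : G → ℂ) ≠ 0) :
    Fintype.card ι * 2 ^ (blockHeight 2 B (χ : G → ℂ) + 1) ≤ 2 ^ blockDefect 2 B := by
  have : Fact (Nat.Prime 2) := ⟨Nat.prime_two⟩
  have hzc' : ∀ z : Subgroup.center D, ∀ w ∈ D, ((z : D) : G) * w = w * ((z : D) : G) := by
    intro z w hw
    have h1 := Subgroup.mem_center_iff.1 z.2 ⟨w, hw⟩
    exact (congrArg Subtype.val h1).symm
  choose f hf1 hf2 hf3 hf4 using fun z : Subgroup.center D =>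
    Cfsg.Agent.H658.exists_major hM hD (z : D).2 (hzc' z) hb
  exact DXVI.card_mul_le_pred hM hD f hf1 hf2 hf3 hf4 (P := fun g => g ∈ Subgroup.normalizer (D : Set G))
    (fun g hg => hg.1)
    (fun i => ⟨⟨z i, hzD i⟩, Subgroup.mem_center_iff.2 fun w => Subtype.ext (hzc i w w.2).symm⟩)
    hz4 hz hχ hh

theorem stab_iff {K : Subgroup G} {c : Set (IrrCharacter ↥K)} {g : G} (hg : g ∈ Subgroup.normalizer (K : Set G)) :
    StabilizesBlock K c g ↔ ∀ θ ∈ c, ∀ θ' : IrrCharacter ↥K,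
        (∀ h h' : ↥K, (h' : G) = g * h * g⁻¹ → (θ' : ↥K → ℂ) h' = (θ : ↥K → ℂ) h) → θ' ∈ c := by
  constructor
  · rintro ⟨-, h⟩ θ hθ θ' h'
    obtain ⟨θ'', h1, h2⟩ := h θ hθ
    have h3 := (isConjCharOf_iff K hg θ θ'').1 h2
    have h4 := (isConjCharOf_iff K hg θ θ').1 h'
    rw [← h4, h3]
    exact h1
  · intro h
    refine ⟨hg, fun θ hθ => ?_⟩
    have h1 := (isConjCharOf_iff K hg θ (irrMap (conjAut K g hg) θ)).2 rfl
    exact ⟨_, h θ hθ _ h1, h1⟩

theorem hT_iff {c : Set (IrrCharacter ↥(Subgroup.centralizer (D : Set G)))} {T : Subgroup G}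
    (hT : ∀ g : G, g ∈ T ↔ (g ∈ Subgroup.normalizer (D : Set G) ∧
      StabilizesBlock (Subgroup.centralizer (D : Set G)) c g)) (g : G) :
    g ∈ T ↔ (g ∈ Subgroup.normalizer (D : Set G) ∧
      ∀ θ ∈ c, ∀ θ' : IrrCharacter ↥(Subgroup.centralizer (D : Set G)),
        (∀ h h' : ↥(Subgroup.centralizer (D : Set G)), (h' : G) = g * h * g⁻¹ →
          (θ' : ↥(Subgroup.centralizer (D : Set G)) → ℂ) h' =
            (θ : ↥(Subgroup.centralizer (D : Set G)) → ℂ) h) → θ' ∈ c) := by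
  rw [hT]
  exact and_congr_right fun hg => stab_iff (mem_normalizer_centralizer hg)

theorem card_mul_le_ab (hM : IsPModular 2 M) (hD : IsDefectGroup 2 M B D) (hab : ∀ x ∈ D, ∀ y ∈ D, x * y = y * x)
    {c : Set (IrrCharacter ↥(Subgroup.centralizer (D : Set G)))}
    (hc : IsInducedBlock M (Subgroup.centralizer (D : Set G)) c B) {T : Subgroup G}
    (hT : ∀ g : G, g ∈ T ↔ (g ∈ Subgroup.normalizer (D : Set G) ∧
      StabilizesBlock (Subgroup.centralizer (D : Set G)) c g))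
    {ι : Type*} [Fintype ι] (z : ι → G) (hzD : ∀ i, z i ∈ D)
    (hz4 : ∀ i, z i ^ 4 = 1) (hz : ∀ i j, ∀ t ∈ T, t * z i * t⁻¹ = z j → i = j)
    {χ : IrrCharacter G} (hχ : χ ∈ B) (hh : blockHeight 2 B (χ : G → ℂ) ≠ 0) :
    Fintype.card ι * 2 ^ (blockHeight 2 B (χ : G → ℂ) + 1) ≤ 2 ^ blockDefect 2 B := by
  have hle : D ≤ Subgroup.centralizer (D : Set G) := fun x hx =>
    Subgroup.mem_centralizer_iff.2 fun y hy => hab y hy x hx
  exact card_mul_le' hM hD (sup_eq_right.2 hle).symm hc (hT_iff hT) z hzD (fun i w hw => hab _ (hzD i) w hw) hz4 hz hχ hh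

end Cfsg.Agent.H850.KS
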