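import Mathlib

/-!
# S4577: orbits of the inertial group on `D`

* `act` : the action of `T ≤ N(D)` on `D`, `card_range_act : |range| = |T : C_T(D)|`;
* `exists_fix_seven` : a group of order 7, 21 or 63 acting faithfully on `2^4` has a fixed point `≠ 1`;
* `card_le_mul_orbits` : `|X| ≤ k * #orbits`.
-/

set_option autoImplicit false
set_option linter.unusedSectionVars false

namespace Cfsg.Agent.H850.KS

section act

variable {G : Type*} [Group G] {D T : Subgroup G}

/-- the action of `T` on `D` -/
def act (hTN : T ≤ Subgroup.normalizer (D : Set G)) : T →* MulAut D :=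
  D.normalizerMonoidHom.comp (Subgroup.inclusion hTN)

theorem act_coe (hTN : T ≤ Subgroup.normalizer (D : Set G)) (t : T) (v : D) :
    ((act hTN t v : D) : G) = t * v * (t : G)⁻¹ := rfl

theorem ker_act (hTN : T ≤ Subgroup.normalizer (D : Set G)) :
    (act hTN).ker = (Subgroup.centralizer (D : Set G)).subgroupOf T := by
  ext t
  rw [MonoidHom.mem_ker, Subgroup.mem_subgroupOf, Subgroup.mem_centralizer_iff]
  constructor
  · intro h v hv
    have h1 : ((act hTN t ⟨v, hv⟩ : D) : G) = v := by rw [h]; rfl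
    rw [act_coe] at h1
    exact (mul_inv_eq_iff_eq_mul.1 h1).symm
  · intro h
    ext v
    rw [act_coe, ← h v v.2, mul_inv_cancel_right]
    rfl

theorem card_range_act (hTN : T ≤ Subgroup.normalizer (D : Set G)) :
    Nat.card (act hTN).range = (Subgroup.centralizer (D : Set G)).relIndex T := by
  rw [← Subgroup.index_ker, ker_act]
  rfl

end act

section orb

/-- `|X| ≤ k * #orbits` -/
theorem card_le_mul_orbits {E X : Type*} [Group E] [Finite E] [Finite X] [MulAction E X] :
    Nat.card X ≤ Nat.card E * Nat.card (MulAction.orbitRel.Quotient E X) := by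
  classical
  have := Fintype.ofFinite X
  have := Fintype.ofFinite (MulAction.orbitRel.Quotient E X)
  rw [Nat.card_eq_fintype_card, Nat.card_eq_fintype_card (α := MulAction.orbitRel.Quotient E X),
    ← Finset.card_univ (α := X), ← Finset.card_univ (α := MulAction.orbitRel.Quotient E X)]
  refine Finset.card_le_mul_card_image_of_maps_to (f := fun x : X => (Quotient.mk'' x : MulAction.orbitRel.Quotient E X))
    (fun _ _ => Finset.mem_univ _) _ fun q _ => ?_
  obtain ⟨x, rfl⟩ := Quotient.exists_rep q
  have := Fintype.ofFinite E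
  calc (Finset.univ.filter fun y : X => (Quotient.mk'' y : MulAction.orbitRel.Quotient E X) = ⟦x⟧).card
      ≤ (Finset.univ.image fun g : E => g • x).card := by
        refine Finset.card_le_card fun y hy => ?_
        rw [Finset.mem_filter] at hy
        have h1 : MulAction.orbitRel E X y x := Quotient.exact hy.2
        obtain ⟨g, hg⟩ := MulAction.orbitRel_apply.1 h1
        exact Finset.mem_image.2 ⟨g, Finset.mem_univ _, hg⟩
    _ ≤ (Finset.univ : Finset E).card := Finset.card_image_le
    _ = Nat.card E := by rw [Finset.card_univ, Nat.card_eq_fintype_card]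

end orb

section seven

variable {X : Type*} [Group X] [Finite X]

theorem exists_fix_seven (hX : Nat.card X = 16) (E : Subgroup (MulAut X)) (h63 : Nat.card E ∣ 63)
    (h7 : 7 ∣ Nat.card E) : ∃ x : X, x ≠ 1 ∧ ∀ f ∈ E, f x = x := by
  classical
  have : Fact (Nat.Prime 7) := ⟨by norm_num⟩
  have hEf : Finite E := Nat.finite_of_card_ne_zero (by rintro h0; rw [h0] at h63; norm_num at h63)
  obtain ⟨P⟩ : Nonempty (Sylow 7 E) := inferInstance
  have hPi : Nat.card P * (P : Subgroup E).index = Nat.card E := Subgroup.card_mul_index _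
  -- the order of `P`
  have hP7 : 7 ∣ Nat.card P := by
    have h1 := P.card_eq_multiplicity
    rw [h1]
    refine dvd_pow_self 7 ?_
    exact (Nat.Prime.factorization_pos_of_dvd (by norm_num) Nat.card_pos.ne' h7).ne'
  have hidx : (P : Subgroup E).index ∣ 9 := by
    obtain ⟨m, hm⟩ := hP7
    have h1 : 7 * (m * (P : Subgroup E).index) ∣ 7 * 9 := by
      rw [← mul_assoc, ← hm, hPi]
      exact h63
    exact (Dvd.intro_left m rfl).trans (Nat.dvd_of_mul_dvd_mul_left (by norm_num) h1)
  have hn : Nat.card (Sylow 7 E) = 1 := by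
    have h1 : Nat.card (Sylow 7 E) ∣ 9 := (Sylow.card_dvd_index P).trans hidx
    have h2 : Nat.card (Sylow 7 E) ≡ 1 [MOD 7] := card_sylow_modEq_one 7 E
    have h3 : Nat.card (Sylow 7 E) ≤ 9 := Nat.le_of_dvd (by norm_num) h1
    obtain ⟨n, hn⟩ : ∃ n, n = Nat.card (Sylow 7 E) := ⟨_, rfl⟩
    rw [← hn] at h1 h2 h3 ⊢
    unfold Nat.ModEq at h2
    interval_cases n <;> omega
  have hPn : (P : Subgroup E).Normal := by
    have : Subsingleton (Sylow 7 E) := (Nat.card_eq_one_iff_unique.1 hn).1
    exact Sylow.normal_of_subsingleton P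
  -- fixed points of `P`
  let F : Subgroup X :=
    { carrier := {x | ∀ f : E, f ∈ (P : Subgroup E) → (f : MulAut X) x = x}
      one_mem' := fun f _ => map_one _
      mul_mem' := fun {a b} ha hb f hf => by rw [map_mul, ha f hf, hb f hf]
      inv_mem' := fun {a} ha f hf => by rw [map_inv, ha f hf] }
  have hF : ∀ x, x ∈ F ↔ ∀ f : E, f ∈ (P : Subgroup E) → (f : MulAut X) x = x := fun _ => Iff.rfl
  have hmod : Nat.card X ≡ Nat.card (MulAction.fixedPoints P X) [MOD 7] :=
    P.isPGroup'.card_modEq_card_fixedPoints X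
  have hcF : Nat.card (MulAction.fixedPoints P X) = Nat.card F := by
    refine Nat.card_congr (Equiv.subtypeEquivRight fun x => ?_)
    rw [MulAction.mem_fixedPoints, hF]
    exact ⟨fun h f hf => h ⟨f, hf⟩, fun h f => h f f.2⟩
  rw [hcF, hX] at hmod
  have hFd : Nat.card F ∣ 16 := hX ▸ Subgroup.card_subgroup_dvd_card F
  have hF2 : Nat.card F = 2 ∨ Nat.card F = 16 := by
    have h3 : Nat.card F ≤ 16 := Nat.le_of_dvd (by norm_num) hFd
    obtain ⟨n, hn⟩ : ∃ n, n = Nat.card F := ⟨_, rfl⟩
    rw [← hn] at hFd hmod h3 ⊢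
    unfold Nat.ModEq at hmod
    interval_cases n <;> omega
  rcases hF2 with h2 | h16
  · obtain ⟨x, hx1, hx⟩ : ∃ x : F, x ≠ 1 ∧ ∀ y : F, y ≠ 1 → y = x := by
      obtain ⟨a, b, hab, huniv⟩ := Nat.card_eq_two_iff.1 h2
      have hmem : ∀ y : F, y = a ∨ y = b := fun y => by
        have : y ∈ ({a, b} : Set F) := by rw [huniv]; trivial
        simpa using this
      rcases hmem 1 with h1 | h1
      · exact ⟨b, fun h => hab (by rw [h, h1]), fun y hy => (hmem y).resolve_left fun h => hy (by rw [h, h1])⟩
      · exact ⟨a, fun h => hab (by rw [h, h1]), fun y hy => (hmem y).resolve_right fun h => hy (by rw [h, h1])⟩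
    refine ⟨x, fun h => hx1 (Subtype.ext h), fun f hf => ?_⟩
    have h3 : f (x : X) ∈ F := by
      rw [hF]
      intro g hg
      have h4 := hPn.conj_mem g hg (⟨f, hf⟩ : E)⁻¹
      have h5 := (hF _).1 x.2 _ h4
      rw [inv_inv] at h5
      have h6 : (((⟨f, hf⟩ : E)⁻¹ * g * ⟨f, hf⟩ : E) : MulAut X) (x : X) = f⁻¹ ((g : MulAut X) (f (x : X))) := rfl
      rw [h6, MulAut.inv_apply, MulEquiv.symm_apply_eq] at h5
      exact h5
    have h4 := hx ⟨f (x : X), h3⟩ fun h => hx1 (by
      have h5 : f (x : X) = 1 := congrArg Subtype.val h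
      exact Subtype.ext ((map_eq_one_iff f f.injective).1 h5))
    exact congrArg Subtype.val h4
  · exfalso
    have hFt : F = ⊤ := Subgroup.eq_top_of_card_eq F (by rw [h16, hX])
    have hPb : (P : Subgroup E) = ⊥ := by
      rw [eq_bot_iff]
      intro f hf
      rw [Subgroup.mem_bot]
      apply Subtype.ext
      ext x
      exact (hF x).1 (by rw [hFt]; trivial) f hf
    have h1 : Nat.card P = 1 := by
      have : Nat.card (P : Subgroup E) = 1 := by rw [hPb]; exact Subgroup.card_bot
      exact this
    rw [h1] at hP7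
    norm_num at hP7

end seven

end Cfsg.Agent.H850.KS
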