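import Mathlib
import Cfsg.Agent.H537.FrattiniBound

/-!
# Groups of order 16, for S4577

* `comm_unique` : if all centralizers of noncentral elements have index two, there is only one commutator `≠ 1`;
* `exists_three` : `|D| = 16`, `|Z(D)| = 4`: three elements of `Z(D)`, pairwise not conjugate under `N(D)`;
* `exists_five` : an abelian group of order 16, neither cyclic nor elementary: five elements of order at most 4 in
  different orbits of a group of automorphisms of odd order.
-/

set_option autoImplicit false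
set_option linter.unusedSectionVars false

open scoped commutatorElement

namespace Cfsg.Agent.H850.KS

section nonab

variable {D : Type*} [Group D]

theorem comm_unique (hidx : ∀ x y : D, x * y ≠ y * x → (Subgroup.centralizer ({x} : Set D)).index = 2)
    {a b x y : D} (hab : a * b ≠ b * a) (hxy : x * y ≠ y * x) : ⁅x, y⁆ = ⁅a, b⁆ := by
  have key : ∀ x y y' : D, x * y ≠ y * x → x * y' ≠ y' * x → ⁅x, y⁆ = ⁅x, y'⁆ := by
    intro x y y' h h'
    have h2 := hidx x y h
    have hm : ∀ w, w ∈ Subgroup.centralizer ({x} : Set D) ↔ x * w = w * x := fun w => by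
      rw [Subgroup.mem_centralizer_singleton_iff]
      exact eq_comm
    have h3 : y⁻¹ * y' ∈ Subgroup.centralizer ({x} : Set D) := by
      rw [Subgroup.mul_mem_iff_of_index_two h2, inv_mem_iff, hm, hm]
      exact ⟨fun h4 => absurd h4 h, fun h4 => absurd h4 h'⟩
    rw [hm] at h3
    have h4 : y' = y * (y⁻¹ * y') := by group
    rw [h4, commutatorElement_def, commutatorElement_def]
    calc x * y * x⁻¹ * y⁻¹ = x * y * x⁻¹ * ((y⁻¹ * y') * (y⁻¹ * y')⁻¹) * y⁻¹ := by group
      _ = x * y * (x⁻¹ * (y⁻¹ * y')) * (y * (y⁻¹ * y'))⁻¹ := by group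
      _ = x * y * ((y⁻¹ * y') * x⁻¹) * (y * (y⁻¹ * y'))⁻¹ := by
        have h5 : x⁻¹ * (y⁻¹ * y') = (y⁻¹ * y') * x⁻¹ := by
          rw [inv_mul_eq_iff_eq_mul, ← mul_assoc, h3, mul_inv_cancel_right]
        rw [h5]
      _ = x * (y * (y⁻¹ * y')) * x⁻¹ * (y * (y⁻¹ * y'))⁻¹ := by group
  have hex : ∃ w, x * w ≠ w * x ∧ a * w ≠ w * a := by
    by_cases h1 : a * y = y * a
    · by_cases h2 : x * b = b * x
      · refine ⟨y * b, fun h => hxy ?_, fun h => hab ?_⟩
        · have h3 : x * y * b = y * x * b := by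
            rw [mul_assoc x y b, h, mul_assoc, ← h2, ← mul_assoc]
          exact mul_right_cancel h3
        · have h3 : y * (a * b) = y * (b * a) := by
            rw [← mul_assoc, ← h1, mul_assoc, h, mul_assoc]
          exact mul_left_cancel h3
      · exact ⟨b, h2, hab⟩
    · exact ⟨y, hxy, h1⟩
  obtain ⟨w, hw1, hw2⟩ := hex
  rw [key x y w hxy hw1, key a b w hab hw2, ← commutatorElement_inv w x, ← commutatorElement_inv w a,
    key w x a (Ne.symm hw1) (Ne.symm hw2)]

theorem index_centralizer [Finite D] (h16 : Nat.card D = 16) (h4 : Nat.card (Subgroup.center D) = 4) (x y : D)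
    (h : x * y ≠ y * x) : (Subgroup.centralizer ({x} : Set D)).index = 2 := by
  have hxZ : x ∉ Subgroup.center D := fun h1 => h ((Subgroup.mem_center_iff.1 h1 y).symm)
  have hZC : Subgroup.center D ≤ Subgroup.centralizer ({x} : Set D) := by
    intro z hz
    rw [Subgroup.mem_centralizer_singleton_iff]
    exact (Subgroup.mem_center_iff.1 hz x).symm
  have hxC : x ∈ Subgroup.centralizer ({x} : Set D) := Subgroup.mem_centralizer_singleton_iff.2 rfl
  have hlt : Subgroup.center D < Subgroup.centralizer ({x} : Set D) :=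
    lt_of_le_of_ne hZC fun h1 => hxZ (by rw [h1]; exact hxC)
  have hne : Subgroup.centralizer ({x} : Set D) ≠ ⊤ := fun h1 => h (by
    have : y ∈ Subgroup.centralizer ({x} : Set D) := by rw [h1]; trivial
    exact (Subgroup.mem_centralizer_singleton_iff.1 this).symm)
  have h5 : 4 ∣ Nat.card (Subgroup.centralizer ({x} : Set D)) := by
    rw [← h4]
    exact Subgroup.card_dvd_of_le hZC
  have h6 : 4 ≠ Nat.card (Subgroup.centralizer ({x} : Set D)) := by
    rw [← h4]
    intro h7
    exact hlt.ne (Subgroup.eq_of_le_of_card_ge hZC h7.ge)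
  have h7 := (Subgroup.centralizer ({x} : Set D)).card_mul_index
  rw [h16] at h7
  have h8 : (Subgroup.centralizer ({x} : Set D)).index ≠ 1 := fun h9 => hne (Subgroup.index_eq_one.1 h9)
  obtain ⟨m, hm⟩ := h5
  obtain ⟨n, hn⟩ : ∃ n, n = (Subgroup.centralizer ({x} : Set D)).index := ⟨_, rfl⟩
  rw [hm] at h6 h7
  rw [← hn] at h7 h8 ⊢
  have h9 : m * n = 4 := by
    have : 4 * (m * n) = 4 * 4 := by rw [← mul_assoc]; exact h7
    exact Nat.eq_of_mul_eq_mul_left (by norm_num) this
  have hm4 : m ≤ 4 := Nat.le_of_dvd (by norm_num) ⟨n, h9.symm⟩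
  interval_cases m <;> omega

end nonab

section three

variable {G : Type*} [Group G] [Finite G] {D : Subgroup G}

/-- three central elements of `D`, pairwise not conjugate under the normalizer -/
theorem exists_three (h16 : Nat.card D = 16) (h4 : Nat.card (Subgroup.center D) = 4)
    (hna : ¬ IsMulCommutative D) :
    ∃ z : Fin 3 → G, (∀ i, z i ∈ D) ∧ (∀ i, ∀ w ∈ D, z i * w = w * z i) ∧ (∀ i, z i ^ 4 = 1) ∧
      ∀ i j, ∀ t ∈ Subgroup.normalizer (D : Set G), t * z i * t⁻¹ = z j → i = j := by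
  classical
  obtain ⟨a, b, hab⟩ : ∃ a b : D, a * b ≠ b * a := by
    by_contra hcon
    push Not at hcon
    exact hna ⟨⟨hcon⟩⟩
  have hU : ∀ x y : D, x * y ≠ y * x → ⁅x, y⁆ = ⁅a, b⁆ := fun x y h =>
    comm_unique (index_centralizer h16 h4) hab h
  obtain ⟨c, hc⟩ : ∃ c : D, c = ⁅a, b⁆ := ⟨_, rfl⟩
  have hc1 : c ≠ 1 := by
    intro h
    rw [hc, commutatorElement_eq_one_iff_mul_comm] at h
    exact hab h
  have haut : ∀ f : D ≃* D, f c = c := by
    intro f
    rw [hc, map_commutatorElement]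
    refine hU _ _ fun h => hab ?_
    rw [← map_mul, ← map_mul] at h
    exact f.injective h
  have hcZ : c ∈ Subgroup.center D := by
    rw [Subgroup.mem_center_iff]
    intro g
    have h1 := haut (MulAut.conj g)
    rw [MulAut.conj_apply, mul_inv_eq_iff_eq_mul] at h1
    exact h1
  have hcN : ∀ t ∈ Subgroup.normalizer (D : Set G), t * (c : G) * t⁻¹ = c := fun t ht =>
    congrArg Subtype.val (haut (D.normalizerMonoidHom ⟨t, ht⟩))
  -- the third element
  obtain ⟨w, hwZ, hw1, hwc⟩ : ∃ w ∈ Subgroup.center D, w ≠ 1 ∧ w ≠ c := by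
    by_contra hcon
    push Not at hcon
    have h1 : (Subgroup.center D : Set D) ⊆ ({1, c} : Finset D) := by
      intro w hw
      by_cases h2 : w = 1
      · simp [h2]
      · simp [hcon w hw h2]
    have h2 := Set.ncard_le_ncard h1 (Finset.finite_toSet _)
    rw [Set.ncard_coe_finset] at h2
    have h3 : (Subgroup.center D : Set D).ncard = 4 := h4
    have h5 : ({1, c} : Finset D).card ≤ 2 := Finset.card_le_two
    omega
  have hZc : ∀ z ∈ Subgroup.center D, ∀ w ∈ D, (z : G) * w = w * z := by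
    intro z hz w hw
    exact (congrArg Subtype.val (Subgroup.mem_center_iff.1 hz ⟨w, hw⟩)).symm
  have hZ4 : ∀ z ∈ Subgroup.center D, (z : G) ^ 4 = 1 := by
    intro z hz
    have h1 : (⟨z, hz⟩ : Subgroup.center D) ^ 4 = 1 := by
      rw [← h4]
      exact pow_card_eq_one'
    exact congrArg (fun x : Subgroup.center D => ((x : D) : G)) h1
  have hw1' : (w : G) ≠ 1 := fun h => hw1 (Subtype.ext h)
  have hc1' : (c : G) ≠ 1 := fun h => hc1 (Subtype.ext h)
  have hwc' : (w : G) ≠ c := fun h => hwc (Subtype.ext h)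
  refine ⟨![1, c, w], ?_, ?_, ?_, ?_⟩
  · intro i
    fin_cases i
    · exact D.one_mem
    · exact c.2
    · exact w.2
  · intro i v hv
    fin_cases i
    · change 1 * v = v * 1
      rw [one_mul, mul_one]
    · exact hZc c hcZ v hv
    · exact hZc w hwZ v hv
  · intro i
    fin_cases i
    · exact one_pow 4
    · exact hZ4 c hcZ
    · exact hZ4 w hwZ
  · intro i j t ht h
    have h0 : ∀ v : G, t * v * t⁻¹ = 1 → v = 1 := fun v hv => by
      rwa [mul_inv_eq_one, mul_eq_left] at hv
    fin_cases i <;> fin_cases j <;> first | rfl | (exfalso; revert h; change ¬ (_ = _))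
    · change t * 1 * t⁻¹ ≠ c
      rw [mul_one, mul_inv_cancel]
      exact hc1'.symm
    · change t * 1 * t⁻¹ ≠ w
      rw [mul_one, mul_inv_cancel]
      exact hw1'.symm
    · exact fun h => hc1' (h0 _ h)
    · change t * c * t⁻¹ ≠ w
      rw [hcN t ht]
      exact hwc'.symm
    · exact fun h => hw1' (h0 _ h)
    · change t * w * t⁻¹ ≠ c
      intro h
      rw [← hcN t ht] at h
      exact hwc' (mul_left_cancel (mul_right_cancel h))

end three

section five

variable {X : Type*} [Group X] [Finite X]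

theorem exists_five (h16 : Nat.card X = 16) (hab : IsMulCommutative X) (hcyc : ¬ IsCyclic X)
    (hel : ∃ x : X, x * x ≠ 1) (E : Subgroup (MulAut X)) (hE : Odd (Nat.card E)) :
    ∃ z : Fin 5 → X, (∀ i, z i ^ 4 = 1) ∧ ∀ i j, ∀ f ∈ E, f (z i) = z j → i = j := by
  classical
  have hcomm : ∀ x y : X, x * y = y * x := fun x y => hab.is_comm.comm x y
  -- an element of order four
  obtain ⟨x, hx2, hx4⟩ : ∃ x : X, x ^ 2 ≠ 1 ∧ x ^ 4 = 1 := by
    obtain ⟨x, hx⟩ := hel
    by_cases h4 : x ^ 4 = 1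
    · exact ⟨x, by rwa [pow_two], h4⟩
    · refine ⟨x ^ 2, by rwa [← pow_mul], ?_⟩
      by_contra h8
      rw [← pow_mul] at h8
      apply hcyc
      refine isCyclic_of_orderOf_eq_card x ?_
      rw [h16]
      have h1 : orderOf x ∣ 2 ^ 4 := by
        have := orderOf_dvd_natCard x
        rw [h16] at this
        exact this
      obtain ⟨k, hk, hk'⟩ := (Nat.dvd_prime_pow Nat.prime_two).1 h1
      have h2 : ¬ k ≤ 3 := by
        intro h3
        apply h8
        rw [show (2 * 4 : ℕ) = 2 ^ k * 2 ^ (3 - k) by rw [← pow_add, Nat.add_sub_cancel' h3]; norm_num, pow_mul,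
          ← hk', pow_orderOf_eq_one, one_pow]
      have h4 : k = 4 := by omega
      rw [hk', h4]
      norm_num
  -- the subgroups of elements of exponent 2 and 4
  let Ω : ℕ → Subgroup X := fun n =>
    { carrier := {q | q ^ n = 1}
      one_mem' := one_pow n
      mul_mem' := fun {a b} ha hb => by
        change (a * b) ^ n = 1
        have hc : Commute a b := hcomm a b
        rw [hc.mul_pow, (ha : a ^ n = 1), (hb : b ^ n = 1), mul_one]
      inv_mem' := fun {a} ha => by
        change (a⁻¹) ^ n = 1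
        rw [inv_pow, (ha : a ^ n = 1), inv_one] }
  have hΩ : ∀ n q, q ∈ Ω n ↔ q ^ n = 1 := fun _ _ => Iff.rfl
  have hle : Ω 2 ≤ Ω 4 := by
    intro q hq
    rw [hΩ] at hq ⊢
    rw [show (4 : ℕ) = 2 * 2 by norm_num, pow_mul, hq, one_pow]
  have hXp : IsPGroup 2 X := IsPGroup.of_card (n := 4) (by rw [h16]; norm_num)
  have h2 : 4 ∣ Nat.card (Ω 2) := by
    have h3 : Nat.card (Ω 2) ∣ 2 ^ 4 := by
      have := Subgroup.card_subgroup_dvd_card (Ω 2)
      rw [h16] at this
      exact this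
    obtain ⟨k, hk, hk'⟩ := (Nat.dvd_prime_pow Nat.prime_two).1 h3
    by_cases hk2 : 2 ≤ k
    · rw [hk']
      exact pow_dvd_pow 2 hk2
    · exfalso
      have h4 : Nat.card (Ω 2) ≤ 2 := by
        rw [hk']
        exact (Nat.pow_le_pow_right (by norm_num) (by omega : k ≤ 1)).trans (by norm_num)
      apply hcyc
      refine Cfsg.Agent.H537.FrattiniBound.cyclic_of_unique hXp hab (x ^ 2) fun y hy => ?_
      by_contra hcon
      push Not at hcon
      have h5 : (({1, x ^ 2, y} : Finset X) : Set X) ⊆ (Ω 2 : Set X) := by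
        intro q hq
        simp only [Finset.coe_insert, Finset.coe_singleton, Set.mem_insert_iff, Set.mem_singleton_iff] at hq
        rcases hq with rfl | rfl | rfl
        · exact one_mem _
        · exact (hΩ 2 _).2 (by rw [← pow_mul]; exact hx4)
        · exact (hΩ 2 _).2 (by rw [pow_two]; exact hy)
      have h6 := Set.ncard_le_ncard h5 (Set.toFinite _)
      rw [Set.ncard_coe_finset, Finset.card_eq_three.2 ⟨1, x ^ 2, y, hx2.symm, hcon.1.symm, hcon.2.symm, rfl⟩] at h6
      have h7 : (Ω 2 : Set X).ncard = Nat.card (Ω 2) := rfl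
      omega
  have h4 : 4 ∣ Nat.card (Ω 4) := h2.trans (Subgroup.card_dvd_of_le hle)
  -- no automorphism in `E` inverts `x`
  have hinv : ∀ f ∈ E, f x ≠ x⁻¹ := by
    intro f hf h
    obtain ⟨m, hm⟩ := hE
    have h5 : (f * f) x = x := by
      rw [MulAut.mul_apply, h, map_inv, h, inv_inv]
    have h6 : ∀ k : ℕ, ((f * f) ^ k) x = x := by
      intro k
      induction k with
      | zero => rfl
      | succ k ih => rw [pow_succ, MulAut.mul_apply, h5, ih]
    have h7 : f ^ (Nat.card E) = 1 := by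
      have : (⟨f, hf⟩ : E) ^ (Nat.card E) = 1 := pow_card_eq_one'
      exact congrArg Subtype.val this
    rw [hm, pow_succ', pow_mul, pow_two] at h7
    have h8 : (f * (f * f) ^ m) x = x := by rw [h7]; rfl
    rw [MulAut.mul_apply, h6, h] at h8
    apply hx2
    rw [pow_two]
    nth_rw 1 [← h8]
    exact inv_mul_cancel x
  -- the orbits
  have horb : Odd (MulAction.orbit E x).ncard := by
    rw [← MulAction.index_stabilizer]
    exact hE.of_dvd_nat (Subgroup.index_dvd_card _)
  obtain ⟨O, hO⟩ : ∃ O : Set X, O = MulAction.orbit E x := ⟨_, rfl⟩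
  rw [← hO] at horb
  have hmO : ∀ q, q ∈ O ↔ ∃ f ∈ E, f x = q := by
    intro q
    rw [hO, MulAction.mem_orbit_iff]
    exact ⟨fun ⟨f, hf⟩ => ⟨f, f.2, hf⟩, fun ⟨f, hf, h⟩ => ⟨⟨f, hf⟩, h⟩⟩
  have hy : ∃ y : X, y ^ 2 ≠ 1 ∧ y ^ 4 = 1 ∧ y ∉ O ∧ y⁻¹ ∉ O := by
    by_contra hcon
    push Not at hcon
    have hOp : ∀ q ∈ O, q ^ 2 ≠ 1 ∧ q ^ 4 = 1 := by
      intro q hq
      obtain ⟨f, hf, rfl⟩ := (hmO q).1 hq
      rw [← map_pow, ← map_pow, hx4, map_one]
      exact ⟨fun h => hx2 ((map_eq_one_iff f f.injective).1 h), rfl⟩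
    have hset : (Ω 4 : Set X) = (Ω 2 : Set X) ∪ (O ∪ O⁻¹) := by
      ext q
      simp only [Set.mem_union, Set.mem_inv, SetLike.mem_coe, hΩ]
      constructor
      · intro h
        by_cases h5 : q ^ 2 = 1
        · exact Or.inl h5
        · right
          by_cases h6 : q ∈ O
          · exact Or.inl h6
          · exact Or.inr (hcon q h5 h h6)
      · rintro (h | h | h)
        · rw [show (4 : ℕ) = 2 * 2 by norm_num, pow_mul, h, one_pow]
        · exact (hOp q h).2
        · have := (hOp _ h).2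
          rwa [inv_pow, inv_eq_one] at this
    have hd1 : Disjoint (Ω 2 : Set X) (O ∪ O⁻¹) := by
      rw [Set.disjoint_left]
      rintro q hq (h | h)
      · exact (hOp q h).1 hq
      · refine (hOp _ h).1 ?_
        rw [inv_pow, inv_eq_one]
        exact hq
    have hd2 : Disjoint O O⁻¹ := by
      rw [Set.disjoint_left]
      intro q hq h
      rw [Set.mem_inv] at h
      obtain ⟨f, hf, rfl⟩ := (hmO q).1 hq
      obtain ⟨g, hg, h5⟩ := (hmO _).1 h
      refine hinv (f⁻¹ * g) (E.mul_mem (E.inv_mem hf) hg) ?_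
      rw [MulAut.mul_apply, h5, map_inv, MulAut.inv_apply_self]
    have hc1 := Set.ncard_union_eq hd1
    have hc2 := Set.ncard_union_eq hd2
    rw [← hset] at hc1
    rw [hc2, Set.ncard_inv] at hc1
    have h5 : (Ω 4 : Set X).ncard = Nat.card (Ω 4) := rfl
    have h6 : (Ω 2 : Set X).ncard = Nat.card (Ω 2) := rfl
    obtain ⟨m, hm⟩ := horb
    omega
  obtain ⟨y, hy2, hy4, hyO, hyO'⟩ := hy
  have hf1 : ∀ f ∈ E, f x ≠ y := fun f hf h => hyO ((hmO y).2 ⟨f, hf, h⟩)
  have hf2 : ∀ f ∈ E, f x⁻¹ ≠ y := fun f hf h => hyO' ((hmO _).2 ⟨f, hf, by rw [← h, map_inv, inv_inv]⟩)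
  have hx1 : x ≠ 1 := fun h => hx2 (by rw [h, one_pow])
  have hy1 : y ≠ 1 := fun h => hy2 (by rw [h, one_pow])
  have hxi2 : (x⁻¹) ^ 2 ≠ 1 := by rwa [inv_pow, Ne, inv_eq_one]
  refine ⟨![1, x ^ 2, x, x⁻¹, y], ?_, ?_⟩
  · intro i
    fin_cases i
    · exact one_pow 4
    · change (x ^ 2) ^ 4 = 1
      rw [← pow_mul, mul_comm, pow_mul, hx4, one_pow]
    · exact hx4
    · change (x⁻¹) ^ 4 = 1
      rw [inv_pow, hx4, inv_one]
    · exact hy4
  · intro i j f hf h
    have g0 : ∀ v : X, f v = 1 → v = 1 := fun v hv => (map_eq_one_iff f f.injective).1 hv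
    have g1 : ∀ v : X, v ^ 2 ≠ 1 → f v ≠ x ^ 2 := by
      intro v hv h5
      apply hv
      apply g0
      rw [map_pow, h5, ← pow_mul]
      exact hx4
    have g2 : ∀ v : X, v ^ 2 ≠ 1 → f (x ^ 2) ≠ v := by
      intro v hv h5
      apply hv
      rw [← h5, ← map_pow, ← pow_mul, show (2 * 2 : ℕ) = 4 by norm_num, hx4, map_one]
    have g3 : ∀ v : X, v ≠ 1 → f 1 ≠ v := fun v hv h5 => hv (by rw [← h5, map_one])
    have g4 : ∀ v w : X, f v = w → f⁻¹ w = v := fun v w h5 => by rw [← h5, MulAut.inv_apply_self]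
    fin_cases i <;> fin_cases j <;> first | rfl | exfalso
    · exact g3 (x ^ 2) hx2 h
    · exact g3 x hx1 h
    · exact g3 x⁻¹ (inv_ne_one.2 hx1) h
    · exact g3 y hy1 h
    · exact hx2 (g0 _ h)
    · exact g2 x hx2 h
    · exact g2 x⁻¹ hxi2 h
    · exact g2 y hy2 h
    · exact hx1 (g0 _ h)
    · exact g1 x hx2 h
    · exact hinv f hf h
    · exact hf1 f hf h
    · exact inv_ne_one.2 hx1 (g0 _ h)
    · exact g1 x⁻¹ hxi2 h
    · refine hinv f hf ?_
      have h5 : f x⁻¹ = x := h
      rw [map_inv] at h5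
      exact inv_eq_iff_eq_inv.1 h5
    · exact hf2 f hf h
    · exact hy1 (g0 _ h)
    · exact g1 y hy2 h
    · exact hf1 f⁻¹ (E.inv_mem hf) (g4 _ _ h)
    · exact hf2 f⁻¹ (E.inv_mem hf) (g4 _ _ h)

end five

end Cfsg.Agent.H850.KS
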